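import Cfsg.Agent.H355.AFF.Abs

/-!
# S5745, affine stabilisers: the count (helper355)

`H` the stabiliser of an extremely primitive simple group `G`, `X` a minimal normal subgroup of `H`, `X` abelian and a Sylow
`s`-subgroup of `G`.

* `inf_ne_bot` : `H ⊓ H^x ≠ 1`;
* `ncard_le` : there are at most `|X|` subgroups `H ⊓ H^x`;
* `card_le` : if `X = ⟨L⟩` then `|G| ≤ |X| ^ (3 + |L|)`.
-/

set_option autoImplicit false
set_option linter.unusedSectionVars false

namespace Cfsg.Agent.H355.AFF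

open Subgroup Cfsg Cfsg.Agent.H284 Cfsg.Agent.H209.EPX

variable {G : Type*} [Group G] [Finite G] {H X : Subgroup G} (h : EPA2 H X)
  {s : ℕ} [hs : Fact s.Prime]

include h

theorem inf_ne_bot [IsSimpleGroup G] {S : Sylow s G} (hXS : X = (S : Subgroup G)) {x : G} (hx : x ∉ H) :
    H ⊓ cj x H ≠ ⊥ := by
  intro hM
  have h1 := h.ep.ab_card h.m.le h.m.nrm h.m.ne h.ab hx
  rw [hM, Subgroup.card_bot, mul_one] at h1
  have h2 : X = H := Subgroup.eq_of_le_of_card_ge h.m.le h1.ge
  have hP : normalizer ((S : Subgroup G) : Set G) ≤ Subgroup.centralizer ((S : Subgroup G) : Set G) := by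
    intro n hn
    rw [← hXS] at hn ⊢
    have h3 : n ∈ X := by
      rw [h2]
      exact h.ep.norm_le h.m.toNIn h.m.ne fun k hk => (mem_normalizer_iff.1 hn k).1 hk
    rw [Subgroup.mem_centralizer_iff]
    intro k hk
    exact h.ab k hk n h3
  have h3 := MonoidHom.ker_transferSylow_isComplement' S hP
  rcases (inferInstance : (MonoidHom.transferSylow S hP).ker.Normal).eq_bot_or_eq_top with h4 | h4
  · rw [h4, isComplement'_bot_left] at h3
    apply h.ep.max.1
    rw [← h2, hXS, h3]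
  · rw [h4, isComplement'_top_left] at h3
    exact h.m.ne (hXS.trans h3)

theorem coprime {S : Sylow s G} (hXS : X = (S : Subgroup G)) :
    (Nat.card ↥(X.subgroupOf H)).Coprime (X.subgroupOf H).index := by
  have h1 : Nat.card ↥(X.subgroupOf H) = Nat.card ↥X := Nat.card_congr (subgroupOfEquivOfLe h.m.le).toEquiv
  have h2 : (X.subgroupOf H).index = X.relIndex H := rfl
  have h3 : ¬ s ∣ X.relIndex H := by
    intro hd
    have h4 : X.relIndex H ∣ X.index := Subgroup.relIndex_dvd_index_of_le h.m.le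
    have h5 := hd.trans h4
    rw [hXS] at h5
    exact S.not_dvd_index h5
  obtain ⟨k, hk⟩ := IsPGroup.iff_card.1 (show IsPGroup s ↥X by rw [hXS]; exact S.2)
  rw [h1, h2, hk]
  exact Nat.Coprime.pow_left _ ((Nat.Prime.coprime_iff_not_dvd hs.out).2 h3)

theorem ncard_le {S : Sylow s G} (hXS : X = (S : Subgroup G)) : (EP.twoSet H).ncard ≤ Nat.card ↥X := by
  classical
  have hcop := coprime h hXS
  have hn : (X.subgroupOf H).Normal := ⟨fun n hn g => h.m.nrm g g.2 n hn⟩
  have hc : IsMulCommutative ↥(X.subgroupOf H) :=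
    ⟨⟨fun a b => Subtype.ext (Subtype.ext (h.ab _ a.2 _ b.2))⟩⟩
  obtain ⟨x, hx⟩ := h.ep.exists_notMem
  have hcomp : ∀ y : G, y ∉ H → IsComplement' (X.subgroupOf H) ((H ⊓ cj y H).subgroupOf H) := by
    intro y hy
    apply isComplement'_of_card_mul_and_disjoint
    · rw [Nat.card_congr (subgroupOfEquivOfLe h.m.le).toEquiv, Nat.card_congr (subgroupOfEquivOfLe inf_le_left).toEquiv]
      exact h.ep.ab_card h.m.le h.m.nrm h.m.ne h.ab hy
    · rw [disjoint_iff, Subgroup.eq_bot_iff_forall]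
      rintro ⟨a, haH⟩ ha
      have h2 : a ∈ X ⊓ cj y H := mem_inf.2 ⟨(mem_inf.1 ha).1, (mem_inf.1 (show a ∈ H ⊓ cj y H from (mem_inf.1 ha).2)).2⟩
      rw [h.ep.ab_inf h.m.le h.m.nrm h.m.ne h.ab hy, mem_bot] at h2
      exact Subtype.ext h2
  have hsub : EP.twoSet H ⊆ Set.range (fun a : ↥X => (H ⊓ cj x H).map (MulAut.conj (a : G)).toMonoidHom) := by
    rintro _ ⟨y, hy, rfl⟩
    obtain ⟨a, ha, hay⟩ := S0002.result (X.subgroupOf H) hcop _ _ (hcomp x hx) (hcomp y hy)
    refine ⟨⟨(a : G), ha⟩, ?_⟩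
    ext g
    constructor
    · rintro ⟨m, hm, rfl⟩
      have hmH : m ∈ H := (mem_inf.1 hm).1
      have h3 : a * ⟨m, hmH⟩ * a⁻¹ ∈ (H ⊓ cj y H).subgroupOf H := by
        rw [← hay]
        exact ⟨⟨m, hmH⟩, hm, rfl⟩
      exact h3
    · intro hg
      have hgH : g ∈ H := (mem_inf.1 hg).1
      have h3 : (⟨g, hgH⟩ : H) ∈ (H ⊓ cj y H).subgroupOf H := hg
      rw [← hay] at h3
      obtain ⟨m, hm, hmg⟩ := h3
      exact ⟨(m : G), hm, congrArg Subtype.val hmg⟩
  refine (Set.ncard_le_ncard hsub (Set.toFinite _)).trans ?_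
  rw [← Set.image_univ]
  refine (Set.ncard_image_le (Set.toFinite _)).trans ?_
  rw [Set.ncard_univ]

theorem card_le [IsSimpleGroup G] {S : Sylow s G} (hXS : X = (S : Subgroup G)) (L : Finset G)
    (hL : closure (L : Set G) = X) : Nat.card G ≤ Nat.card ↥X ^ (3 + L.card) := by
  classical
  obtain ⟨x, hx⟩ := h.ep.exists_notMem
  have h1 : H.index ≤ Nat.card ↥X ^ 2 :=
    (h.ep.index_le_sq fun y hy => inf_ne_bot h hXS hy).trans (Nat.pow_le_pow_left (ncard_le h hXS) 2)
  have h2 := h.ep.ab_card h.m.le h.m.nrm h.m.ne h.ab hx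
  have hLX : ∀ a ∈ L, a ∈ X := fun a ha => hL ▸ subset_closure ha
  have h3 : Nat.card ↥(H ⊓ cj x H : Subgroup G) ≤ Nat.card ↥X ^ L.card := by
    let f : ↥(H ⊓ cj x H : Subgroup G) → (↥L → ↥X) := fun m a =>
      ⟨(m : G) * a * (m : G)⁻¹, h.m.nrm _ (mem_inf.1 m.2).1 _ (hLX a a.2)⟩
    have hf : Function.Injective f := by
      intro m m' hmm
      have h4 : ∀ a ∈ X, ((m' : G)⁻¹ * m) * a = a * ((m' : G)⁻¹ * m) := by
        intro a ha
        rw [← hL] at ha
        induction ha using closure_induction with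
        | mem a ha =>
          have h5 : (m : G) * a * (m : G)⁻¹ = (m' : G) * a * (m' : G)⁻¹ :=
            Subtype.ext_iff.1 (congrFun hmm ⟨a, ha⟩)
          calc (m' : G)⁻¹ * m * a = (m' : G)⁻¹ * (m * a * (m : G)⁻¹) * m := by group
            _ = (m' : G)⁻¹ * (m' * a * (m' : G)⁻¹) * m := by rw [h5]
            _ = a * ((m' : G)⁻¹ * m) := by group
        | one => rw [mul_one, one_mul]
        | mul a b _ _ iha ihb => rw [← mul_assoc, iha, mul_assoc, ihb, ← mul_assoc]
        | inv a _ iha => rw [mul_inv_eq_iff_eq_mul, mul_assoc, iha, ← mul_assoc, inv_mul_cancel, one_mul]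
      have h5 : (m' : G)⁻¹ * m ∈ X := cent_le h h4
      have h6 : (m' : G)⁻¹ * m ∈ X ⊓ cj x H :=
        mem_inf.2 ⟨h5, (cj x H).mul_mem ((cj x H).inv_mem (mem_inf.1 m'.2).2) (mem_inf.1 m.2).2⟩
      rw [h.ep.ab_inf h.m.le h.m.nrm h.m.ne h.ab hx, mem_bot] at h6
      exact Subtype.ext (inv_mul_eq_one.1 h6).symm
    have h4 := Nat.card_le_card_of_injective f hf
    rwa [Nat.card_fun, Nat.card_eq_fintype_card (α := ↥L), Fintype.card_coe] at h4
  calc Nat.card G = Nat.card ↥H * H.index := (Subgroup.card_mul_index H).symm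
    _ = Nat.card ↥X * Nat.card ↥(H ⊓ cj x H : Subgroup G) * H.index := by rw [h2]
    _ ≤ Nat.card ↥X * Nat.card ↥X ^ L.card * Nat.card ↥X ^ 2 :=
      Nat.mul_le_mul (Nat.mul_le_mul_left _ h3) h1
    _ = Nat.card ↥X ^ (3 + L.card) := by ring

/-- `|X| = s`: `|G| ≤ s ^ 4` -/
theorem card_le_four [IsSimpleGroup G] {S : Sylow s G} (hXS : X = (S : Subgroup G)) (hc : Nat.card ↥X = s) :
    Nat.card G ≤ s ^ 4 := by
  classical
  obtain ⟨z, hz, hz1⟩ := exists_mem h
  have h1 := card_le h hXS {z} (by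
    rw [Finset.coe_singleton, ← zpowers_eq_closure]
    apply Subgroup.eq_of_le_of_card_ge (by rw [zpowers_le]; exact hz)
    have h2 : Nat.card ↥(zpowers z) ∣ s := hc ▸ Subgroup.card_dvd_of_le (by rw [zpowers_le]; exact hz)
    rcases (Nat.dvd_prime hs.out).1 h2 with h3 | h3
    · exfalso
      apply hz1
      rw [Nat.card_zpowers, orderOf_eq_one_iff] at h3
      exact h3
    · rw [h3, hc])
  rw [Finset.card_singleton, hc] at h1
  exact h1

/-- `|X| = s ^ 2`: `|G| ≤ s ^ 10` -/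
theorem card_le_ten [IsSimpleGroup G] {S : Sylow s G} (hXS : X = (S : Subgroup G)) (hc : Nat.card ↥X = s ^ 2) :
    Nat.card G ≤ s ^ 10 := by
  classical
  obtain ⟨r, hr, hX⟩ := exists_prime h
  obtain ⟨z, hz, hz1⟩ := exists_mem h
  have hrs : r = s := by
    have := Fact.mk hr
    have h1 : orderOf z = r := orderOf_eq_prime (hX z hz) hz1
    have h2 : orderOf z ∣ s ^ 2 := by
      rw [← hc]
      exact Subgroup.orderOf_dvd_natCard X hz
    rw [h1] at h2
    exact (Nat.prime_dvd_prime_iff_eq hr hs.out).1 (hr.dvd_of_dvd_pow h2)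
  rw [hrs] at hr hX
  have hzc : Nat.card ↥(zpowers z) = s := by rw [Nat.card_zpowers]; exact orderOf_eq_prime (hX z hz) hz1
  obtain ⟨y, hy, hyz⟩ : ∃ y ∈ X, y ∉ zpowers z := by
    by_contra hcon
    push Not at hcon
    have h2 : X ≤ zpowers z := hcon
    have h3 := Subgroup.card_le_of_le h2
    rw [hc, hzc] at h3
    have := hr.two_le
    nlinarith
  have h1 := card_le h hXS {z, y} (by
    rw [Finset.coe_pair]
    have hle : closure {z, y} ≤ X := by
      rw [closure_le]
      rintro a (rfl | rfl)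
      · exact hz
      · exact hy
    apply Subgroup.eq_of_le_of_card_ge hle
    have h2 : Nat.card ↥(closure {z, y}) ∣ s ^ 2 := hc ▸ Subgroup.card_dvd_of_le hle
    obtain ⟨k, hk, h3⟩ := (Nat.dvd_prime_pow hs.out).1 h2
    have hzle : zpowers z ≤ closure {z, y} := by
      rw [zpowers_le]
      exact subset_closure (Set.mem_insert _ _)
    rw [hc, h3]
    by_contra hcon
    have hk1 : k ≤ 1 := by
      by_contra hk2
      have hk3 : k = 2 := by omega
      rw [hk3] at hcon
      exact hcon le_rfl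
    have h4 : closure {z, y} = zpowers z := by
      refine (Subgroup.eq_of_le_of_card_ge hzle ?_).symm
      rw [h3, hzc]
      calc s ^ k ≤ s ^ 1 := Nat.pow_le_pow_right hr.pos hk1
        _ = s := pow_one s
    apply hyz
    rw [← h4]
    exact subset_closure (Set.mem_insert_of_mem _ rfl))
  refine h1.trans ?_
  rw [hc, ← pow_mul]
  apply Nat.pow_le_pow_right hr.pos
  have := Finset.card_le_two (a := z) (b := y)
  omega

end Cfsg.Agent.H355.AFF
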