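import Mathlib

/-!
# S5745, affine stabilisers: `s ^ 4 < |G|` for the primes dividing the order of an exceptional group (helper355)
-/

set_option autoImplicit false

namespace Cfsg.Agent.H355.AFF.Num

theorem concl {g N P s B : ℕ} (hg3 : g ≤ 3) (hN : g * N = P) (hP : 3 * B ^ 4 ≤ P) (hs : s < B) : s ^ 4 < N := by
  by_contra hcon
  push Not at hcon
  have h1 : s ^ 4 < B ^ 4 := Nat.pow_lt_pow_left hs (by norm_num)
  have h2 : g * N ≤ 3 * s ^ 4 := Nat.mul_le_mul hg3 hcon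
  rw [hN] at h2
  omega

theorem le_sub {q : ℕ} (hq : 2 ≤ q) (d : ℕ) : q ^ d ≤ q ^ (d + 1) - 1 := by
  have h1 : 1 ≤ q ^ d := Nat.one_le_pow _ _ (by omega)
  have h2 : q ^ (d + 1) = q ^ d * q := pow_succ q d
  have h3 : q ^ d * 2 ≤ q ^ d * q := Nat.mul_le_mul_left _ hq
  omega

/-- a prime dividing a factor -/
theorem lt_of_dvd {s n B : ℕ} (hn : 0 < n) (hnB : n < B) (h : s ∣ n) : s < B := (Nat.le_of_dvd hn h).trans_lt hnB

theorem lt_of_pow {q s k B : ℕ} (hs : s.Prime) (hq : 2 ≤ q) (hB : q < B) (h : s ∣ q ^ k) : s < B :=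
  lt_of_dvd (by omega) hB (hs.dvd_of_dvd_pow h)

theorem lt_of_sub {q s k d : ℕ} (hq : 2 ≤ q) (hk : 1 ≤ k) (hkd : k ≤ d) (h : s ∣ q ^ k - 1) : s < q ^ d := by
  have h0 : q ^ 1 ≤ q ^ k := Nat.pow_le_pow_right (by omega) hk
  have h1 : q ^ k ≤ q ^ d := Nat.pow_le_pow_right (by omega) hkd
  exact lt_of_dvd (by rw [pow_one] at h0; omega) (by rw [pow_one] at h0; omega) h

theorem lt_of_add {q s k d : ℕ} (hq : 2 ≤ q) (hk : 1 ≤ k) (hkd : k < d) (h : s ∣ q ^ k + 1) : s < q ^ d := by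
  have h0 : q ^ 1 ≤ q ^ k := Nat.pow_le_pow_right (by omega) hk
  have h1 : q ^ (k + 1) ≤ q ^ d := Nat.pow_le_pow_right (by omega) hkd
  have h2 : q ^ (k + 1) = q ^ k * q := pow_succ q k
  have h3 : q ^ k * 2 ≤ q ^ k * q := Nat.mul_le_mul_left _ hq
  exact lt_of_dvd (by omega) (by rw [pow_one] at h0; omega) h

theorem lt_self {q d : ℕ} (hq : 2 ≤ q) (hd : 2 ≤ d) : q < q ^ d := by
  calc q = q ^ 1 := (pow_one q).symm
    _ < q ^ d := Nat.pow_lt_pow_right (by omega) hd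

theorem three_mul_le {q B k : ℕ} (hq : 2 ≤ q) (h : 4 * B + 2 ≤ k) : 3 * (q ^ B) ^ 4 ≤ q ^ k := by
  have h1 : q ^ (4 * B + 2) ≤ q ^ k := Nat.pow_le_pow_right (by omega) h
  have h2 : q ^ (4 * B + 2) = (q ^ B) ^ 4 * q ^ 2 := by rw [← pow_mul, ← pow_add]; congr 1; ring
  have h3 : 3 ≤ q ^ 2 := by nlinarith
  calc 3 * (q ^ B) ^ 4 = (q ^ B) ^ 4 * 3 := mul_comm _ _
    _ ≤ (q ^ B) ^ 4 * q ^ 2 := Nat.mul_le_mul_left _ h3
    _ = q ^ (4 * B + 2) := h2.symm
    _ ≤ q ^ k := h1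

variable {q s N : ℕ}

theorem f4 (hs : s.Prime) (hq : 2 ≤ q) (hN : N = q ^ 24 * (q ^ 2 - 1) * (q ^ 6 - 1) * (q ^ 8 - 1) * (q ^ 12 - 1))
    (hd : s ∣ N) : s ^ 4 < N := by
  have hlt : s < q ^ 12 := by
    rw [hN] at hd
    simp only [hs.dvd_mul] at hd
    rcases hd with (((h | h) | h) | h) | h
    · exact lt_of_pow hs hq (lt_self hq (by norm_num)) h
    all_goals exact lt_of_sub hq (by norm_num) (by norm_num) h
  have h1 := Nat.pow_lt_pow_left hlt (show (4 : ℕ) ≠ 0 by norm_num)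
  have h2 : q ^ 24 * q ^ 1 * q ^ 5 * q ^ 7 * q ^ 11 ≤ N := by
    rw [hN]
    gcongr
    · exact le_sub hq 1
    · exact le_sub hq 5
    · exact le_sub hq 7
    · exact le_sub hq 11
  calc s ^ 4 < (q ^ 12) ^ 4 := h1
    _ = q ^ 24 * q ^ 1 * q ^ 5 * q ^ 7 * q ^ 11 := by ring
    _ ≤ N := h2

theorem e6 (hs : s.Prime) (hq : 2 ≤ q) (hN : Nat.gcd 3 (q - 1) * N =
      q ^ 36 * (q ^ 2 - 1) * (q ^ 5 - 1) * (q ^ 6 - 1) * (q ^ 8 - 1) * (q ^ 9 - 1) * (q ^ 12 - 1))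
    (hd : s ∣ N) : s ^ 4 < N := by
  have hlt : s < q ^ 12 := by
    have hd := hd.trans (Dvd.intro_left _ hN)
    simp only [hs.dvd_mul] at hd
    rcases hd with (((((h | h) | h) | h) | h) | h) | h
    · exact lt_of_pow hs hq (lt_self hq (by norm_num)) h
    all_goals exact lt_of_sub hq (by norm_num) (by norm_num) h
  refine concl (Nat.gcd_le_left _ (by norm_num)) hN ?_ hlt
  have h2 : q ^ 36 * q ^ 1 * q ^ 4 * q ^ 5 * q ^ 7 * q ^ 8 * q ^ 11 ≤
      q ^ 36 * (q ^ 2 - 1) * (q ^ 5 - 1) * (q ^ 6 - 1) * (q ^ 8 - 1) * (q ^ 9 - 1) * (q ^ 12 - 1) := by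
    gcongr
    · exact le_sub hq 1
    · exact le_sub hq 4
    · exact le_sub hq 5
    · exact le_sub hq 7
    · exact le_sub hq 8
    · exact le_sub hq 11
  refine (three_mul_le hq (k := 72) (by norm_num)).trans (le_trans (le_of_eq (by ring)) h2)

theorem te6 (hs : s.Prime) (hq : 2 ≤ q) (hN : Nat.gcd 3 (q + 1) * N =
      q ^ 36 * (q ^ 2 - 1) * (q ^ 5 + 1) * (q ^ 6 - 1) * (q ^ 8 - 1) * (q ^ 9 + 1) * (q ^ 12 - 1))
    (hd : s ∣ N) : s ^ 4 < N := by
  have hlt : s < q ^ 12 := by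
    have hd := hd.trans (Dvd.intro_left _ hN)
    simp only [hs.dvd_mul] at hd
    rcases hd with (((((h | h) | h) | h) | h) | h) | h
    · exact lt_of_pow hs hq (lt_self hq (by norm_num)) h
    · exact lt_of_sub hq (by norm_num) (by norm_num) h
    · exact lt_of_add hq (by norm_num) (by norm_num) h
    · exact lt_of_sub hq (by norm_num) (by norm_num) h
    · exact lt_of_sub hq (by norm_num) (by norm_num) h
    · exact lt_of_add hq (by norm_num) (by norm_num) h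
    · exact lt_of_sub hq (by norm_num) (by norm_num) h
  refine concl (Nat.gcd_le_left _ (by norm_num)) hN ?_ hlt
  have h2 : q ^ 36 * q ^ 1 * q ^ 5 * q ^ 5 * q ^ 7 * q ^ 9 * q ^ 11 ≤
      q ^ 36 * (q ^ 2 - 1) * (q ^ 5 + 1) * (q ^ 6 - 1) * (q ^ 8 - 1) * (q ^ 9 + 1) * (q ^ 12 - 1) := by
    gcongr
    · exact le_sub hq 1
    · exact Nat.le_succ _
    · exact le_sub hq 5
    · exact le_sub hq 7
    · exact Nat.le_succ _
    · exact le_sub hq 11
  refine (three_mul_le hq (k := 74) (by norm_num)).trans (le_trans (le_of_eq (by ring)) h2)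

theorem e7 (hs : s.Prime) (hq : 2 ≤ q) (hN : Nat.gcd 2 (q - 1) * N = q ^ 63 * (q ^ 2 - 1) * (q ^ 6 - 1) * (q ^ 8 - 1) *
      (q ^ 10 - 1) * (q ^ 12 - 1) * (q ^ 14 - 1) * (q ^ 18 - 1))
    (hd : s ∣ N) : s ^ 4 < N := by
  have hlt : s < q ^ 18 := by
    have hd := hd.trans (Dvd.intro_left _ hN)
    simp only [hs.dvd_mul] at hd
    rcases hd with ((((((h | h) | h) | h) | h) | h) | h) | h
    · exact lt_of_pow hs hq (lt_self hq (by norm_num)) h
    all_goals exact lt_of_sub hq (by norm_num) (by norm_num) h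
  refine concl ((Nat.gcd_le_left _ (by norm_num)).trans (by norm_num)) hN ?_ hlt
  have h2 : q ^ 63 * q ^ 1 * q ^ 5 * q ^ 7 * q ^ 9 * q ^ 11 * q ^ 13 * q ^ 17 ≤
      q ^ 63 * (q ^ 2 - 1) * (q ^ 6 - 1) * (q ^ 8 - 1) *
      (q ^ 10 - 1) * (q ^ 12 - 1) * (q ^ 14 - 1) * (q ^ 18 - 1) := by
    gcongr
    · exact le_sub hq 1
    · exact le_sub hq 5
    · exact le_sub hq 7
    · exact le_sub hq 9
    · exact le_sub hq 11
    · exact le_sub hq 13
    · exact le_sub hq 17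
  refine (three_mul_le hq (k := 126) (by norm_num)).trans (le_trans (le_of_eq (by ring)) h2)

theorem e8 (hs : s.Prime) (hq : 2 ≤ q) (hN : N = q ^ 120 * (q ^ 2 - 1) * (q ^ 8 - 1) * (q ^ 12 - 1) * (q ^ 14 - 1) *
      (q ^ 18 - 1) * (q ^ 20 - 1) * (q ^ 24 - 1) * (q ^ 30 - 1))
    (hd : s ∣ N) : s ^ 4 < N := by
  have hlt : s < q ^ 30 := by
    rw [hN] at hd
    simp only [hs.dvd_mul] at hd
    rcases hd with (((((((h | h) | h) | h) | h) | h) | h) | h) | h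
    · exact lt_of_pow hs hq (lt_self hq (by norm_num)) h
    all_goals exact lt_of_sub hq (by norm_num) (by norm_num) h
  refine concl (g := 1) (by norm_num) ((one_mul N).trans hN) ?_ hlt
  have h2 : q ^ 120 * q ^ 1 * q ^ 7 * q ^ 11 * q ^ 13 * q ^ 17 * q ^ 19 * q ^ 23 * q ^ 29 ≤
      q ^ 120 * (q ^ 2 - 1) * (q ^ 8 - 1) * (q ^ 12 - 1) * (q ^ 14 - 1) *
      (q ^ 18 - 1) * (q ^ 20 - 1) * (q ^ 24 - 1) * (q ^ 30 - 1) := by
    gcongr
    · exact le_sub hq 1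
    · exact le_sub hq 7
    · exact le_sub hq 11
    · exact le_sub hq 13
    · exact le_sub hq 17
    · exact le_sub hq 19
    · exact le_sub hq 23
    · exact le_sub hq 29
  refine (three_mul_le hq (k := 240) (by norm_num)).trans (le_trans (le_of_eq (by ring)) h2)

theorem td4 (hs : s.Prime) (hq : 2 ≤ q) (hN : N = q ^ 12 * (q ^ 2 - 1) * (q ^ 6 - 1) * (q ^ 8 + q ^ 4 + 1))
    (hd : s ∣ N) : s ^ 4 < N := by
  have hlt : s < q ^ 6 := by
    rw [hN] at hd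
    simp only [hs.dvd_mul] at hd
    rcases hd with ((h | h) | h) | h
    · exact lt_of_pow hs hq (lt_self hq (by norm_num)) h
    · exact lt_of_sub hq (by norm_num) (by norm_num) h
    · exact lt_of_sub hq (by norm_num) (by norm_num) h
    · obtain ⟨k, rfl⟩ : ∃ k, q = k + 2 := ⟨q - 2, by omega⟩
      have e : (k + 2) ^ 8 + (k + 2) ^ 4 + 1 =
          ((k + 2) ^ 4 + (k + 2) ^ 2 + 1) * ((k + 2) ^ 3 * k + 2 * (k + 2) ^ 3 - (k + 2) ^ 2 + 1) := by
        have h1 : (k + 2) ^ 3 * k + 2 * (k + 2) ^ 3 - (k + 2) ^ 2 = (k + 2) ^ 3 * k + (k + 2) ^ 2 * (2 * k + 3) := by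
          have : (k + 2) ^ 3 * k + 2 * (k + 2) ^ 3 = (k + 2) ^ 3 * k + (k + 2) ^ 2 * (2 * k + 3) + (k + 2) ^ 2 := by ring
          omega
        rw [h1]
        ring
      rw [e, hs.dvd_mul] at h
      have hA : (k + 2) ^ 4 + (k + 2) ^ 2 + 1 < (k + 2) ^ 6 := by
        have h4 : (k + 2) ^ 4 = (k + 2) ^ 2 * (k + 2) ^ 2 := by ring
        have h6 : (k + 2) ^ 6 = (k + 2) ^ 2 * (k + 2) ^ 2 * (k + 2) ^ 2 := by ring
        have ha : 4 ≤ (k + 2) ^ 2 := by nlinarith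
        rw [h4, h6]
        generalize (k + 2) ^ 2 = a at ha
        have h1 : a * a * 4 ≤ a * a * a := Nat.mul_le_mul_left _ ha
        nlinarith
      rcases h with h | h
      · exact lt_of_dvd (by positivity) hA h
      · refine lt_of_dvd (by positivity) (lt_of_le_of_lt ?_ hA) h
        have : (k + 2) ^ 4 = (k + 2) ^ 3 * k + 2 * (k + 2) ^ 3 := by ring
        omega
  refine concl (g := 1) (by norm_num) ((one_mul N).trans hN) ?_ hlt
  have h2 : q ^ 12 * q ^ 1 * q ^ 5 * q ^ 8 ≤ q ^ 12 * (q ^ 2 - 1) * (q ^ 6 - 1) * (q ^ 8 + q ^ 4 + 1) := by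
    gcongr
    · exact le_sub hq 1
    · exact le_sub hq 5
    · omega
  refine (three_mul_le hq (k := 26) (by norm_num)).trans (le_trans (le_of_eq (by ring)) h2)

theorem g2 (hs : s.Prime) (hq : 3 ≤ q) (hN : N = q ^ 6 * (q ^ 2 - 1) * (q ^ 6 - 1))
    (hd : s ∣ N) : s ^ 4 < N := by
  have hlt : s < 2 * q ^ 2 := by
    rw [hN] at hd
    simp only [hs.dvd_mul] at hd
    rcases hd with (h | h) | h
    · exact lt_of_pow hs (by omega) (by nlinarith) h
    · exact lt_of_dvd (Nat.sub_pos_of_lt (by nlinarith)) (by have : 0 < q ^ 2 := by positivity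
                                                             omega) h
    · obtain ⟨k, rfl⟩ : ∃ k, q = k + 1 := ⟨q - 1, by omega⟩
      have e : (k + 1) ^ 6 - 1 = (k * (k + 2)) * (((k + 1) ^ 2 + (k + 1) + 1) * (k ^ 2 + k + 1)) := by
        have : (k + 1) ^ 6 = (k * (k + 2)) * (((k + 1) ^ 2 + (k + 1) + 1) * (k ^ 2 + k + 1)) + 1 := by ring
        omega
      rw [e, hs.dvd_mul, hs.dvd_mul, hs.dvd_mul] at h
      have hk : 2 ≤ k := by omega
      rcases h with (h | h) | h | h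
      · exact lt_of_dvd (by omega) (by nlinarith) h
      · exact lt_of_dvd (by omega) (by nlinarith) h
      · exact lt_of_dvd (by positivity) (by nlinarith) h
      · exact lt_of_dvd (by positivity) (by nlinarith) h
  have h1 := Nat.pow_lt_pow_left hlt (show (4 : ℕ) ≠ 0 by norm_num)
  have h2 : q ^ 6 * 8 * (2 * q ^ 5) ≤ N := by
    rw [hN]
    gcongr
    · have : 9 ≤ q ^ 2 := by nlinarith
      omega
    · have h3 : q ^ 6 = q ^ 5 * q := pow_succ q 5
      have h4 : q ^ 5 * 3 ≤ q ^ 5 * q := Nat.mul_le_mul_left _ hq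
      have h5 : 1 ≤ q ^ 5 := Nat.one_le_pow _ _ (by omega)
      omega
  calc s ^ 4 < (2 * q ^ 2) ^ 4 := h1
    _ = 16 * q ^ 8 * 1 := by ring
    _ ≤ 16 * q ^ 8 * q ^ 3 := Nat.mul_le_mul_left _ (Nat.one_le_pow _ _ (by omega))
    _ = q ^ 6 * 8 * (2 * q ^ 5) := by ring
    _ ≤ N := h2

theorem tf4 (hs : s.Prime) (hq : 3 ≤ q) (hN : N = q ^ 12 * (q - 1) * (q ^ 3 + 1) * (q ^ 4 - 1) * (q ^ 6 + 1))
    (hd : s ∣ N) : s ^ 4 < N := by
  have hq2 : 2 ≤ q := by omega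
  have hlt : s < q ^ 5 := by
    rw [hN] at hd
    simp only [hs.dvd_mul] at hd
    rcases hd with (((h | h) | h) | h) | h
    · exact lt_of_pow hs hq2 (lt_self hq2 (by norm_num)) h
    · exact lt_of_dvd (by omega) (lt_of_le_of_lt (Nat.sub_le q 1) (lt_self hq2 (by norm_num))) h
    · exact lt_of_add hq2 (by norm_num) (by norm_num) h
    · exact lt_of_sub hq2 (by norm_num) (by norm_num) h
    · have e : q ^ 6 + 1 = (q ^ 2 + 1) * (q ^ 4 - q ^ 2 + 1) := by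
        have h4 : q ^ 4 = q ^ 2 * q ^ 2 := by ring
        have h6 : q ^ 6 = q ^ 2 * q ^ 2 * q ^ 2 := by ring
        have ha : 1 ≤ q ^ 2 := Nat.one_le_pow _ _ (by omega)
        rw [h4, h6]
        generalize q ^ 2 = a at ha
        obtain ⟨b, rfl⟩ : ∃ b, a = b + 1 := ⟨a - 1, by omega⟩
        have h1 : (b + 1) * (b + 1) - (b + 1) = (b + 1) * b := by
          have : (b + 1) * (b + 1) = (b + 1) * b + (b + 1) := by ring
          omega
        rw [h1]
        ring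
      rw [e, hs.dvd_mul] at h
      have h6 : q ^ 5 = q ^ 4 * q := pow_succ q 4
      have h7 : q ^ 4 * 3 ≤ q ^ 4 * q := Nat.mul_le_mul_left _ hq
      have h8 : q ^ 2 ≤ q ^ 4 := Nat.pow_le_pow_right (by omega) (by norm_num)
      have h9 : 1 ≤ q ^ 2 := Nat.one_le_pow _ _ (by omega)
      rcases h with h | h
      · exact lt_of_dvd (by positivity) (by omega) h
      · exact lt_of_dvd (by positivity) (by omega) h
  refine concl (g := 1) (by norm_num) ((one_mul N).trans hN) ?_ hlt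
  have h2 : q ^ 12 * 1 * q ^ 3 * q ^ 3 * q ^ 6 ≤ q ^ 12 * (q - 1) * (q ^ 3 + 1) * (q ^ 4 - 1) * (q ^ 6 + 1) := by
    gcongr
    · omega
    · exact Nat.le_succ _
    · exact le_sub hq2 3
    · exact Nat.le_succ _
  refine (three_mul_le hq2 (k := 24) (by norm_num)).trans (le_trans (le_of_eq (by ring)) h2)

end Cfsg.Agent.H355.AFF.Num
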